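import Mathlib
import Cfsg.Agent.Lib.Helper41.TMStmt
import Cfsg.Agent.Lib.Helper78.HypIPOS
import Cfsg.Agent.Lib.Helper35.TSNUMTYPES
import Cfsg.Agent.Lib.Helper73.TMTOP
import Cfsg.Agent.Lib.Helper43.TMFIXND
import Cfsg.Agent.Lib.Helper29.TMINVDIM
import Cfsg.Agent.Lib.Helper15.TMPERP
import Cfsg.Agent.Lib.Helper52.TMRIMG
import Cfsg.Agent.Lib.Helper52.TMTSHALF
import Cfsg.Agent.Lib.Helper52.TMTSIN
import Cfsg.Agent.Lib.Helper52.TMORTHSUM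
import Cfsg.Agent.Lib.Helper47.TMSUBPERP
import Cfsg.Agent.Lib.Helper11.TMTWOMINUSG
import Cfsg.Agent.Lib.Helper90.TMTYPEEVEN
import Cfsg.Agent.Lib.Helper90.TMHALFODD
import Cfsg.Agent.Lib.Helper29.TMINVSUB
import Cfsg.Agent.Lib.Helper88.TMFXTYPE
import Cfsg.Agent.Lib.Helper59.TMBFE
import Cfsg.Agent.Lib.Helper66.TMBLOCKSK
import Cfsg.Agent.Lib.Helper38.TMTYPEOF
import Cfsg.Agent.Lib.Helper64.TMPAIRE
import Cfsg.Agent.Lib.Helper66.TMPAIRFIND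
import Cfsg.Agent.Lib.Helper10.TMTSEVEN
import Cfsg.Agent.Lib.Helper32.TMFRFIB
import Cfsg.Agent.Lib.Helper35.TMSINGCNT
import Cfsg.Agent.Lib.Helper85.TMFREXT
import Cfsg.Agent.Lib.Helper10.TMCNTID
import Cfsg.Agent.Lib.Helper29.TMNDARITH
import Cfsg.Agent.Lib.Helper91.TMODDOMEGA
import Cfsg.Agent.Lib.Helper14.TMELTDIM
import Cfsg.Agent.Lib.Helper59.TMMULTELT
import Cfsg.Agent.Lib.Helper15.TMBADA
import Cfsg.Agent.Lib.Helper28.TMBADB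
import Cfsg.Agent.Lib.Helper15.TMBADC
import Cfsg.Agent.Lib.Helper28.TMBADD
import Cfsg.Agent.Lib.Helper95.TMB2LOW
import Cfsg.Agent.Lib.Helper95.TMB2ODD
import Cfsg.Agent.Lib.Helper85.TMB2EVEN
import Cfsg.Agent.Lib.Helper99.TMG1O
import Cfsg.Agent.Lib.Helper99.TMG1E
import Cfsg.Agent.Lib.Helper72.TMPROJ
import Cfsg.Agent.Lib.Helper69.TMTSEX

/-!
# S5987: the Props of `Helper41.TMStmt`, proved from the landed pieces (wiring only).
-/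

set_option autoImplicit false

universe u

namespace Cfsg.Agent.Lib.Helper41.TMWire

open Cfsg.Agent.Lib.Helper37.HypStmt (cc IPos)
open Cfsg.Agent.Lib.Helper44.TSStmt (Fac NumTypes)
open Cfsg.Agent.Lib.Helper41.TMStmt

theorem hIPos : IPos.{u} := Cfsg.Agent.Lib.Helper78.HypIPOS.main

theorem hNumTypes : NumTypes.{u} := Cfsg.Agent.Lib.Helper35.TSNUMTYPES.main

theorem hTop : Top.{u} :=
  Cfsg.Agent.Lib.Helper73.TMTOP.main

theorem hFixND : FixND.{u} :=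
  Cfsg.Agent.Lib.Helper43.TMFIXND.main hTop

theorem hInvDim : InvDim.{u} :=
  Cfsg.Agent.Lib.Helper29.TMINVDIM.main

theorem hPerp : Perp.{u} :=
  Cfsg.Agent.Lib.Helper15.TMPERP.main hTop

theorem hRImg : RImg.{u} :=
  Cfsg.Agent.Lib.Helper52.TMRIMG.main

theorem hTsHalf : TsHalf.{u} :=
  Cfsg.Agent.Lib.Helper52.TMTSHALF.main

theorem hTsIn : TsIn.{u} :=
  Cfsg.Agent.Lib.Helper52.TMTSIN.main

theorem hOrthSum : OrthSum.{u} :=
  Cfsg.Agent.Lib.Helper52.TMORTHSUM.main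

theorem hSubPerp : SubPerp.{u} :=
  Cfsg.Agent.Lib.Helper47.TMSUBPERP.main hPerp

theorem hTwoG : TwoMinusG.{u} :=
  Cfsg.Agent.Lib.Helper11.TMTWOMINUSG.main hTop

theorem hTypeEven : TypeEven.{u} :=
  Cfsg.Agent.Lib.Helper90.TMTYPEEVEN.main

theorem hHalfOdd : HalfOdd.{u} :=
  Cfsg.Agent.Lib.Helper90.TMHALFODD.main

theorem hInvSub : InvSub.{u} :=
  Cfsg.Agent.Lib.Helper29.TMINVSUB.main hInvDim

theorem hFxType : FxType.{u} :=
  Cfsg.Agent.Lib.Helper88.TMFXTYPE.main hTop hFixND hPerp hInvDim hHalfOdd hTypeEven hTwoG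

theorem hBFE : BlockFindE.{u} :=
  Cfsg.Agent.Lib.Helper59.TMBFE.main

theorem hBlocksK : BlocksK.{u} :=
  Cfsg.Agent.Lib.Helper66.TMBLOCKSK.main hSubPerp hBFE

theorem hTypeOf : TypeOf.{u} :=
  Cfsg.Agent.Lib.Helper38.TMTYPEOF.main hInvDim

theorem hPairE : PairE.{u} :=
  Cfsg.Agent.Lib.Helper64.TMPAIRE.main hIPos hInvDim hOrthSum hTsHalf

theorem hPairFind : PairFind.{u} :=
  Cfsg.Agent.Lib.Helper66.TMPAIRFIND.main hIPos hNumTypes hTypeOf hPairE hOrthSum hBlocksK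

theorem hTsEven : TsEven.{u} :=
  Cfsg.Agent.Lib.Helper10.TMTSEVEN.main hFixND hPerp hOrthSum hPairFind

theorem hFrFib : FrFib.{u} :=
  Cfsg.Agent.Lib.Helper32.TMFRFIB.main

theorem hSingCnt : SingCnt.{u} :=
  Cfsg.Agent.Lib.Helper35.TMSINGCNT.main

theorem hFrExt : FrExt.{u} :=
  Cfsg.Agent.Lib.Helper85.TMFREXT.main hSingCnt

theorem hCntId : CntId.{u} :=
  Cfsg.Agent.Lib.Helper10.TMCNTID.main hFrFib hFrExt

theorem hNdArith : NdArith :=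
  Cfsg.Agent.Lib.Helper29.TMNDARITH.main

theorem hOddOmega : OddOmega.{u} :=
  Cfsg.Agent.Lib.Helper91.TMODDOMEGA.main

theorem hEltDim : EltDim.{u} :=
  Cfsg.Agent.Lib.Helper14.TMELTDIM.main hOddOmega

theorem hMultElt : MultElt.{u} :=
  Cfsg.Agent.Lib.Helper59.TMMULTELT.main hOddOmega

theorem hBadA : BadA.{u} :=
  Cfsg.Agent.Lib.Helper15.TMBADA.main hEltDim hFixND hTsHalf hRImg hInvDim

theorem hBadB : BadB.{u} :=
  Cfsg.Agent.Lib.Helper28.TMBADB.main hIPos hEltDim hFixND hFxType hTsHalf hRImg hInvDim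

theorem hBadC : BadC.{u} :=
  Cfsg.Agent.Lib.Helper15.TMBADC.main hMultElt hFixND hTsHalf hRImg

theorem hBadD : BadD.{u} :=
  Cfsg.Agent.Lib.Helper28.TMBADD.main hIPos hMultElt hFixND hFxType hTsHalf hRImg

theorem hB2Low : B2Low.{u} :=
  Cfsg.Agent.Lib.Helper95.TMB2LOW.main hIPos hBadA hBadB

theorem hB2Odd : B2Odd.{u} :=
  Cfsg.Agent.Lib.Helper95.TMB2ODD.main hIPos hBadB

theorem hB2Even : B2Even.{u} :=
  Cfsg.Agent.Lib.Helper85.TMB2EVEN.main hIPos hBadA hBadB hBadC hBadD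

theorem hG1O : G1O.{u} :=
  Cfsg.Agent.Lib.Helper99.TMG1O.main hIPos hFixND hPerp hInvDim hHalfOdd hInvSub hFxType hTsIn

theorem hG1E : G1E.{u} :=
  Cfsg.Agent.Lib.Helper99.TMG1E.main hIPos hFixND hPerp hInvDim hFxType hTsIn hTsEven

theorem hProj : Proj.{u} :=
  Cfsg.Agent.Lib.Helper72.TMPROJ.main

theorem hTsEx : TsEx.{u} :=
  Cfsg.Agent.Lib.Helper69.TMTSEX.main

end Cfsg.Agent.Lib.Helper41.TMWire
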