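import Mathlib
import Cfsg.Agent.Lib.Helper45.BalStmt
import Cfsg.Agent.Lib.Helper45.OmegaAutKer

/-!
# S2731, piece INV: two orthogonal vectors of the same non-zero value give an involution in `Ω`
-/

set_option autoImplicit false

namespace Cfsg.Agent.Lib.Helper41.BalINV

open Module QuadraticMap Matrix
open Cfsg.Agent.Lib.Helper44.QSpace Cfsg.Agent.Lib.Helper44.OGroup
open Cfsg.Agent.Lib.Helper44.OMat

universe u

/-- the double reflection in orthogonal vectors -/
theorem refl_refl_apply {F : Type*} [Field F] {V : Type*} [AddCommGroup V] [Module F V]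
    (Q : QuadraticForm F V) (u w : V) (hpol : polar Q u w = 0) (x : V) :
    reflE Q u (reflE Q w x)
      = x - ((Q w)⁻¹ * polar Q x w) • w - ((Q u)⁻¹ * polar Q x u) • u := by
  rw [reflE_apply Q u, reflE_apply Q w]
  have h1 : polar Q (x - ((Q w)⁻¹ * polar Q x w) • w) u = polar Q x u := by
    rw [polar_sub_left, polar_smul_left, polar_comm Q w u, hpol, smul_zero, sub_zero]
  rw [h1]

theorem refl_refl_sq {F : Type*} [Field F] {V : Type*} [AddCommGroup V] [Module F V]
    (Q : QuadraticForm F V) (u w : V) (hu : Q u ≠ 0) (hw : Q w ≠ 0) (hpol : polar Q u w = 0)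
    (x : V) : reflE Q u (reflE Q w (reflE Q u (reflE Q w x))) = x := by
  rw [refl_refl_apply Q u w hpol (reflE Q u (reflE Q w x)), refl_refl_apply Q u w hpol x]
  have hwu : polar Q w u = 0 := by rw [polar_comm]; exact hpol
  have h1 : polar Q (x - ((Q w)⁻¹ * polar Q x w) • w - ((Q u)⁻¹ * polar Q x u) • u) w
      = - polar Q x w := by
    rw [polar_sub_left, polar_sub_left, polar_smul_left, polar_smul_left, hpol, smul_zero,
      sub_zero, polar_self', smul_eq_mul]
    field_simp
    ring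
  have h2 : polar Q (x - ((Q w)⁻¹ * polar Q x w) • w - ((Q u)⁻¹ * polar Q x u) • u) u
      = - polar Q x u := by
    rw [polar_sub_left, polar_sub_left, polar_smul_left, polar_smul_left, hwu, smul_zero,
      sub_zero, polar_self', smul_eq_mul]
    field_simp
    ring
  rw [h1, h2]
  simp only [mul_neg, neg_smul]
  abel

theorem main : Cfsg.Agent.Lib.Helper45.BalStmt.Invol.{u} := by
  intro K _ _ ι _ _ Q h2 u w hu hw hpol
  obtain ⟨s, hs⟩ := Cfsg.Agent.Lib.Helper45.OmegaAutKer.exists_omega_refl_mul h2 Q hu hw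
  have hw0 : Q w ≠ 0 := by rw [hw]; exact hu
  refine ⟨s, ?_, ?_⟩
  · intro h1
    have h3 := hs u
    rw [h1] at h3
    have h4 : reflE Q w u = u := reflE_of_orth hpol
    rw [h4, reflE_self hu] at h3
    have h5 : (((1 : ↥(Cfsg.Omega K ⇑Q)) : ↥(Cfsg.isometryGroup K ⇑Q)) : GL ι K)
        = 1 := rfl
    rw [h5, Units.val_one, Matrix.one_mulVec] at h3
    have h6 : (2 : K) • u = 0 := by
      rw [two_smul]
      nth_rewrite 1 [h3]
      exact neg_add_cancel u
    have h7 : u = 0 := by
      rcases smul_eq_zero.mp h6 with h | h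
      · exact absurd h h2
      · exact h
    apply hu
    rw [h7]
    exact QuadraticMap.map_zero Q
  · apply Subtype.ext
    apply Subtype.ext
    apply Units.ext
    apply matrix_ext_mulVec
    intro x
    have h5 : ((((s * s : ↥(Cfsg.Omega K ⇑Q)) : ↥(Cfsg.isometryGroup K ⇑Q)) : GL ι K) :
        Matrix ι ι K)
        = (((s : ↥(Cfsg.isometryGroup K ⇑Q)) : GL ι K) : Matrix ι ι K)
          * (((s : ↥(Cfsg.isometryGroup K ⇑Q)) : GL ι K) : Matrix ι ι K) := rfl
    have h6 : ((((1 : ↥(Cfsg.Omega K ⇑Q)) : ↥(Cfsg.isometryGroup K ⇑Q)) : GL ι K) :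
        Matrix ι ι K) = 1 := rfl
    rw [h5, h6, ← Matrix.mulVec_mulVec, hs, hs, Matrix.one_mulVec]
    exact refl_refl_sq Q u w hu hw0 hpol x

end Cfsg.Agent.Lib.Helper41.BalINV
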