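import Mathlib
import Cfsg.Agent.Lib.Helper41.EMStmt
import Cfsg.Agent.Lib.Helper41.TMWire
import Cfsg.Agent.Lib.Helper35.EMSUBTYPE
import Cfsg.Agent.Lib.Helper2.EMSPLITW
import Cfsg.Agent.Lib.Helper2.EMDIMOBSA
import Cfsg.Agent.Lib.Helper67.EMBLOCKSA
import Cfsg.Agent.Lib.Helper5.EMFIXCONGE
import Cfsg.Agent.Lib.Helper24.EMUCARDE
import Cfsg.Agent.Lib.Helper2.EMCANCEL
import Cfsg.Agent.Lib.Helper66.EMB1E
import Cfsg.Agent.Lib.Helper15.EMB2E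
import Cfsg.Agent.Lib.Helper26.EMNDIVE
import Cfsg.Agent.Lib.Helper87.EMINVOLE
import Cfsg.Agent.Lib.Helper2.EMNEGSQFIXB1
import Cfsg.Agent.Lib.Helper20.EMNEGSQFIXB2
import Cfsg.Agent.Lib.Helper12.EMC2FIX
import Cfsg.Agent.Lib.Helper14.EMC2DER

/-!
# S5990: the Props of `Helper41.EMStmt`, proved from the landed pieces (wiring only).
-/

set_option autoImplicit false

universe u

namespace Cfsg.Agent.Lib.Helper41.EMWire

open Cfsg.Agent.Lib.Helper41.EMStmt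

theorem hSubTypeE : SubTypeE.{u} :=
  Cfsg.Agent.Lib.Helper35.EMSUBTYPE.main

theorem hSplitE : SplitE.{u} :=
  Cfsg.Agent.Lib.Helper2.EMSPLITW.main

theorem hDimObsA : DimObsA.{u} :=
  Cfsg.Agent.Lib.Helper2.EMDIMOBSA.main hSplitE

theorem hBlocksA : BlocksA.{u} :=
  Cfsg.Agent.Lib.Helper67.EMBLOCKSA.main

theorem hFixCongE : FixCongE.{u} :=
  Cfsg.Agent.Lib.Helper5.EMFIXCONGE.main

theorem hUCardE : UCardE.{u} :=
  Cfsg.Agent.Lib.Helper24.EMUCARDE.main hSubTypeE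

theorem hCancelM : CancelM.{u} :=
  Cfsg.Agent.Lib.Helper2.EMCANCEL.main

theorem hB1E : B1E.{u} :=
  Cfsg.Agent.Lib.Helper66.EMB1E.main Cfsg.Agent.Lib.Helper41.TMWire.hIPos Cfsg.Agent.Lib.Helper41.TMWire.hTop Cfsg.Agent.Lib.Helper41.TMWire.hFixND Cfsg.Agent.Lib.Helper41.TMWire.hFxType Cfsg.Agent.Lib.Helper41.TMWire.hTypeEven Cfsg.Agent.Lib.Helper41.TMWire.hHalfOdd Cfsg.Agent.Lib.Helper41.TMWire.hOrthSum hCancelM hDimObsA hBlocksA hSubTypeE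

theorem hB2E : B2E.{u} :=
  Cfsg.Agent.Lib.Helper15.EMB2E.main Cfsg.Agent.Lib.Helper41.TMWire.hIPos Cfsg.Agent.Lib.Helper41.TMWire.hEltDim Cfsg.Agent.Lib.Helper41.TMWire.hHalfOdd Cfsg.Agent.Lib.Helper41.TMWire.hTypeEven Cfsg.Agent.Lib.Helper41.TMWire.hTwoG Cfsg.Agent.Lib.Helper41.TMWire.hPerp hDimObsA

theorem hNDivE : NDivE.{u} :=
  Cfsg.Agent.Lib.Helper26.EMNDIVE.main Cfsg.Agent.Lib.Helper41.TMWire.hTop Cfsg.Agent.Lib.Helper41.TMWire.hFixND Cfsg.Agent.Lib.Helper41.TMWire.hFxType Cfsg.Agent.Lib.Helper41.TMWire.hEltDim hDimObsA hFixCongE hUCardE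

theorem hInvolE : InvolE.{u} :=
  Cfsg.Agent.Lib.Helper87.EMINVOLE.main hSubTypeE hCancelM

theorem hNegSqFixB1 : NegSqFixB1.{u} :=
  Cfsg.Agent.Lib.Helper2.EMNEGSQFIXB1.main

theorem hNegSqFixB2 : NegSqFixB2.{u} :=
  Cfsg.Agent.Lib.Helper20.EMNEGSQFIXB2.main Cfsg.Agent.Lib.Helper41.TMWire.hPerp Cfsg.Agent.Lib.Helper41.TMWire.hOrthSum hCancelM hNegSqFixB1

theorem hC2Fix : C2Fix.{u} :=
  Cfsg.Agent.Lib.Helper12.EMC2FIX.main Cfsg.Agent.Lib.Helper41.TMWire.hTop Cfsg.Agent.Lib.Helper41.TMWire.hSubPerp Cfsg.Agent.Lib.Helper41.TMWire.hOrthSum Cfsg.Agent.Lib.Helper41.TMWire.hTsIn hCancelM hSubTypeE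

theorem hC2Der : C2Der.{u} :=
  Cfsg.Agent.Lib.Helper14.EMC2DER.main

end Cfsg.Agent.Lib.Helper41.EMWire
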