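import Mathlib
import Cfsg.Agent.Lib.Helper44.GFStmt
import Cfsg.Agent.Lib.Helper45.PlusInndiag

set_option autoImplicit false

/-! Piece [G2a] of S2717: the class-preserving similarities of the plus form with square
multiplier have index two in `Inndiag` (odd characteristic). -/

namespace Cfsg.Agent.Lib.Helper41.GFG2a

open Matrix Module QuadraticMap
open Cfsg.Agent.Lib.Helper43.OPlAut Cfsg.Agent.Lib.Helper45.OmegaAut
  Cfsg.Agent.Lib.Helper43.H90Fin Cfsg.Agent.Lib.Helper45.MinusInndiag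
open Cfsg.Agent.Lib.Helper44.OFld0 Cfsg.Agent.Lib.Helper44.OFld1
  Cfsg.Agent.Lib.Helper44.OFldStmt Cfsg.Agent.Lib.Helper44.MFld0
  Cfsg.Agent.Lib.Helper44.MFldStmt Cfsg.Agent.Lib.Helper44.MCentStmt
  Cfsg.Agent.Lib.Helper44.GFStmt
open Cfsg.Agent.Lib.Helper44.NegPairs Cfsg.Agent.Lib.Helper44.QSpace
  Cfsg.Agent.Lib.Helper44.MaxTS Cfsg.Agent.Lib.Helper44.MaxTS3
open Cfsg.Agent.Lib.Helper45.OmegaAutPsi Cfsg.Agent.Lib.Helper45.PlusInndiag

universe u

/-- in a finite field of odd characteristic the product of two non-squares is a square -/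
theorem isSquare_mul_of_nonsq {F : Type u} [Field F] [Fintype F] {a b : F}
    (ha : ¬ IsSquare a) (hb : ¬ IsSquare b) : IsSquare (a * b) := by
  classical
  have h1 := (quadraticChar_neg_one_iff_not_isSquare (F := F)).mpr ha
  have h2 := (quadraticChar_neg_one_iff_not_isSquare (F := F)).mpr hb
  have ha0 : a ≠ 0 := by
    rintro rfl
    exact ha IsSquare.zero
  have hb0 : b ≠ 0 := by
    rintro rfl
    exact hb IsSquare.zero
  rw [← quadraticChar_one_iff_isSquare (mul_ne_zero ha0 hb0), map_mul, h1, h2]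
  norm_num

/-- membership in `sqSim` through the multiplier -/
theorem mem_sqSim_iff {F : Type u} [Field F] (m : ℕ) {v₀ : Fin m ⊕ Fin m → F}
    (hv₀ : plusQ m F v₀ ≠ 0) (g : GO m F) :
    g ∈ sqSim (Cfsg.quadFormPlus m F) ↔ IsSquare (mu (plusQ m F) g : F) := by
  constructor
  · rintro ⟨c, hc⟩
    have h1 := mu_unique (plusQ m F) hv₀ g (c ^ 2) (fun v => by
      rw [Units.val_pow_eq_pow_val]
      exact hc v)
    rw [h1, Units.val_pow_eq_pow_val]
    exact ⟨(c : F), pow_two (c : F)⟩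
  · rintro ⟨d, hd⟩
    have hd0 : d ≠ 0 := by
      rintro rfl
      rw [mul_zero] at hd
      exact (mu (plusQ m F) g).ne_zero hd
    refine ⟨Units.mk0 d hd0, fun v => ?_⟩
    have h1 := mu_spec (plusQ m F) g v
    rw [hd] at h1
    rw [Units.val_mk0, pow_two]
    exact h1

theorem main (hID : InndiagEq.{u}) (hK : KerPhiCσ.{u}) (hOne : CσOne.{u}) : IndexSq.{u} := by
  intro F _ _ m hm h2 ε hε
  classical
  have hnt : Nontrivial (Fin m ⊕ Fin m → F) := by
    have : Nonempty (Fin m ⊕ Fin m) := ⟨Sum.inl ⟨0, by omega⟩⟩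
    infer_instance
  obtain ⟨v₀, hv₀⟩ := exists_ne_zero (sep_plusQ (F := F) m)
  -- the kernel of `Phi` consists of scalars
  have hker : (Phi (Cfsg.quadFormPlus m F)).ker ≤ ε.ker ⊓ sqSim (Cfsg.quadFormPlus m F) := by
    intro g hg
    rw [MonoidHom.mem_ker] at hg
    have h1 : Phi (Cfsg.quadFormPlus m F) g * cσ (RingEquiv.refl F) = 1 := by
      rw [hOne F m, mul_one, hg]
    obtain ⟨-, hsc⟩ := hK F m hm g (RingEquiv.refl F) h1
    refine ⟨(MonoidHom.mem_ker).mpr (hε.scalar g hsc), ?_⟩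
    obtain ⟨c, hc⟩ := hsc
    have hc0 : c ≠ 0 := by
      rintro rfl
      have h3 := mu_spec (plusQ m F) g v₀
      rw [hc v₀, zero_smul, map_zero] at h3
      exact (mul_ne_zero (mu (plusQ m F) g).ne_zero hv₀) h3.symm
    refine ⟨Units.mk0 c hc0, fun v => ?_⟩
    rw [hc v, Units.val_mk0]
    show plusQ m F (c • v) = c ^ 2 * plusQ m F v
    rw [QuadraticMap.map_smul, smul_eq_mul, pow_two]
  rw [hID F m ε hε, Subgroup.relIndex_map_map, sup_of_le_left hker,
    sup_of_le_left (hker.trans inf_le_left), Subgroup.inf_relIndex_left,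
    Subgroup.relIndex_eq_two_iff]
  obtain ⟨ν, -, hν⟩ := Cfsg.Agent.Lib.Helper45.OmegaAutSim.exists_nonsquare_unit (F := F) h2
  obtain ⟨δ, hδ⟩ : ∃ δ : GO m F, ∀ v, ((δ : GL (Fin m ⊕ Fin m) F) :
      Matrix (Fin m ⊕ Fin m) (Fin m ⊕ Fin m) F) *ᵥ v = Ld m (ν : F) v :=
    exists_sim_mulVec (plusQ m F) (sep_plusQ m) (Ld m (ν : F)) ν (Ld_sim m _)
  have hμδ : mu (plusQ m F) δ = ν :=
    mu_unique (plusQ m F) hv₀ δ _ (fun v => by rw [hδ, Ld_sim])
  have hεδ : ε δ = 1 := by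
    rw [hε.par δ (U0 m F) (ts_std m)]
    have hle : U0 m F ≤ (U0 m F).map (Matrix.toLin'
        ((δ : GL (Fin m ⊕ Fin m) F) : Matrix (Fin m ⊕ Fin m) (Fin m ⊕ Fin m) F)) := by
      intro v hv
      refine ⟨(ν : F)⁻¹ • v, (U0 m F).smul_mem _ hv, ?_⟩
      rw [Matrix.toLin'_apply, hδ, map_smul]
      funext i
      rcases i with i | i
      · rw [Pi.smul_apply, Ld_inl, smul_eq_mul, ← mul_assoc, inv_mul_cancel₀ ν.ne_zero, one_mul]
      · rw [Pi.smul_apply, Ld_inr, (mem_U0 v).mp hv i, smul_zero]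
    rw [inf_of_le_left hle, (ts_std m).1, Nat.sub_self]
    exact Even.zero
  refine ⟨δ, (MonoidHom.mem_ker).mpr hεδ, fun b _ => ?_⟩
  rw [mem_sqSim_iff m hv₀, mem_sqSim_iff m hv₀]
  have hmul : mu (plusQ m F) (b * δ) = mu (plusQ m F) b * ν := by
    rw [← hμδ]
    exact map_mul (muHom (plusQ m F) hv₀) b δ
  rw [hmul, Units.val_mul]
  by_cases hsq : IsSquare (mu (plusQ m F) b : F)
  · refine Or.inr ⟨hsq, fun h => hν ?_⟩
    have h3 := h.mul hsq.inv
    rwa [mul_comm ((mu (plusQ m F) b : Fˣ) : F) (ν : F),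
      mul_inv_cancel_right₀ (Units.ne_zero _)] at h3
  · exact Or.inl ⟨isSquare_mul_of_nonsq hsq hν, hsq⟩

end Cfsg.Agent.Lib.Helper41.GFG2a
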