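import Mathlib
import Cfsg.Agent.Lib.Helper44.MCentStmt
import Cfsg.Agent.Lib.Helper44.OMat2
import Cfsg.Agent.Lib.Helper45.OmegaAutKer
import Cfsg.Agent.Lib.Helper45.OmegaCenter
import Cfsg.Agent.Lib.Helper45.MinusInndiag

set_option autoImplicit false

/-! Piece [CT] of S2716: in characteristic two, `Inndiag` of `PΩ⁻` corresponds under base
change along `j : F₀ →+* F`. -/

namespace Cfsg.Agent.Lib.Helper41.MCentCT

open Matrix Module QuadraticMap
open Cfsg.Agent.Lib.Helper45.OmegaAut Cfsg.Agent.Lib.Helper43.H90Fin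
open Cfsg.Agent.Lib.Helper44.MFld0 Cfsg.Agent.Lib.Helper44.MaxTS
  Cfsg.Agent.Lib.Helper44.NegPairs Cfsg.Agent.Lib.Helper44.QSpace
  Cfsg.Agent.Lib.Helper44.QClass Cfsg.Agent.Lib.Helper44.MFldStmt

universe u v

section Base

variable {F₀ : Type v} [Field F₀] {F : Type u} [Field F] (j : F₀ →+* F)

/-- the rational basis vector of value one -/
def e0 (m : ℕ) (R : Type*) [Field R] : MI m → R := Pi.single (Sum.inr 0) 1

theorem q_e0 (m : ℕ) (R : Type*) [Field R] (a b : R) : Cfsg.quadFormMinus m R a b (e0 m R) = 1 := by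
  unfold Cfsg.quadFormMinus e0
  simp

theorem comp_e0 (m : ℕ) : (j ∘ e0 m F₀ : MI m → F) = e0 m F := by
  funext i
  unfold e0
  by_cases h : i = Sum.inr 0
  · subst h; simp
  · simp [h]

theorem comp_single (ι : Type) [DecidableEq ι] (k : ι) :
    (j ∘ (Pi.single k (1 : F₀) : ι → F₀) : ι → F) = Pi.single k 1 := by
  funext i
  by_cases h : i = k
  · subst h; simp
  · simp [h]

theorem map_mulVec_comp {ι : Type} [Fintype ι] (M : Matrix ι ι F₀) (v : ι → F₀) :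
    M.map j *ᵥ (j ∘ v) = j ∘ (M *ᵥ v) := by
  funext i
  exact (RingHom.map_mulVec j M v i).symm

theorem q_comp (m : ℕ) (a b : F₀) (v : MI m → F₀) :
    Cfsg.quadFormMinus m F (j a) (j b) (j ∘ v) = j (Cfsg.quadFormMinus m F₀ a b v) :=
  Cfsg.Agent.Lib.Helper45.MinusInndiag.minus_map j m a b v

/-- the multiplier of a base-changed similarity -/
theorem mult_map (m : ℕ) (a b : F₀) (M : Matrix (MI m) (MI m) F₀) (c₀ : F₀) (c : F)
    (h₀ : ∀ v, Cfsg.quadFormMinus m F₀ a b (M *ᵥ v) = c₀ * Cfsg.quadFormMinus m F₀ a b v)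
    (h : ∀ v, Cfsg.quadFormMinus m F (j a) (j b) (M.map j *ᵥ v)
      = c * Cfsg.quadFormMinus m F (j a) (j b) v) : c = j c₀ := by
  have h1 := h (j ∘ e0 m F₀)
  rw [map_mulVec_comp, q_comp, q_comp, h₀, q_e0, mul_one, map_one, mul_one] at h1
  exact h1.symm

end Base

section Refl

variable {F₀ : Type v} [Field F₀] {F : Type u} [Field F] (j : F₀ →+* F)

theorem polar_comp (m : ℕ) (a b : F₀) (v w : MI m → F₀) :
    polar (Cfsg.quadFormMinus m F (j a) (j b)) (j ∘ v) (j ∘ w)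
      = j (polar (Cfsg.quadFormMinus m F₀ a b) v w) := by
  unfold polar
  have e : (j ∘ v + j ∘ w : MI m → F) = j ∘ (v + w) := by
    funext i
    simp
  rw [e, q_comp, q_comp, q_comp, map_sub, map_sub]

theorem refl_map (m : ℕ) (a b : F₀) (v : MI m → F₀) :
    (Cfsg.reflectionMatrix (Cfsg.quadFormMinus m F₀ a b) v).map j =
      Cfsg.reflectionMatrix (Cfsg.quadFormMinus m F (j a) (j b)) (j ∘ v) := by
  ext i k
  unfold Cfsg.reflectionMatrix Cfsg.polarVec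
  rw [Matrix.map_apply, Matrix.sub_apply, Matrix.sub_apply, Matrix.smul_apply, Matrix.smul_apply,
    Matrix.vecMulVec_apply, Matrix.vecMulVec_apply, ← comp_single j (MI m) k, polar_comp, q_comp,
    map_sub, smul_eq_mul, smul_eq_mul, map_mul, map_mul, map_inv₀]
  congr 1
  by_cases h : i = k
  · subst h; simp
  · simp [Matrix.one_apply_ne h]

theorem prod_refl_map (m : ℕ) (a b : F₀) (vs : List (MI m → F₀)) :
    ((vs.map (fun v => Cfsg.reflectionMatrix (Cfsg.quadFormMinus m F₀ a b) v)).prod).map j =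
      ((vs.map (fun v => (j ∘ v : MI m → F))).map
        (fun w => Cfsg.reflectionMatrix (Cfsg.quadFormMinus m F (j a) (j b)) w)).prod := by
  induction vs with
  | nil => simp
  | cons w ws ih =>
    rw [List.map_cons, List.prod_cons, Matrix.map_mul, ih, refl_map, List.map_cons, List.map_cons,
      List.prod_cons]

theorem scalar_map {ι : Type} [Fintype ι] [DecidableEq ι] (M : Matrix ι ι F₀) (c₀ : F₀)
    (hM : M = c₀ • (1 : Matrix ι ι F₀)) : M.map j = j c₀ • (1 : Matrix ι ι F) := by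
  subst hM
  ext i k
  by_cases h : i = k
  · subst h; simp
  · simp [Matrix.one_apply_ne h]

end Refl

section Parity

open Cfsg.Agent.Lib.Helper44.OGroup Cfsg.Agent.Lib.Helper44.OMat Cfsg.Agent.Lib.Helper44.OMat2
  Cfsg.Agent.Lib.Helper44.Omega2 Cfsg.Agent.Lib.Helper44.CD2a Cfsg.Agent.Lib.Helper44.Spinor

variable {K : Type*} [Field K] [Fintype K]

theorem card_MI_ne (m : ℕ) (hm : 3 ≤ m) : Fintype.card (MI m) ≠ 4 := by
  simp only [Fintype.card_sum, Fintype.card_fin]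
  omega

/-- every isometry is a product of reflections -/
theorem exists_refl_prod (m : ℕ) (hm : 3 ≤ m) (a b : K) (hA : Aniso a b)
    (s : ↥(Cfsg.isometryGroup K (Cfsg.quadFormMinus m K a b))) :
    ∃ vs : List (MI m → K), (∀ v ∈ vs, Cfsg.quadFormMinus m K a b v ≠ 0) ∧
      ((s : GL (MI m) K) : Matrix (MI m) (MI m) K)
        = (vs.map (fun v => Cfsg.reflectionMatrix (Cfsg.quadFormMinus m K a b) v)).prod := by
  have hS : Sep (minusQ m K a b) := Cfsg.Agent.Lib.Helper45.OmegaCenter.sep_minusQ' m a b hA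
  have hCD : CDP (minusQ m K a b) := cdp_of_card hS (Or.inr (card_MI_ne m hm))
  obtain ⟨vs, hvs, h⟩ := exists_prod_of_cdp hCD s
  refine ⟨vs, hvs, ?_⟩
  apply matrix_ext_mulVec
  intro x
  have h1 := prod_reflection_mulVec (minusQ m K a b) vs x
  have h2 := isoEquiv_apply (minusQ m K a b) s x
  rw [h, coe_prod_refl] at h2
  exact h2.symm.trans h1.symm

/-- characteristic two: the parity criterion for `Ω` -/
theorem mem_omega_iff_even (h2 : (2 : K) = 0) (m : ℕ) (hm : 3 ≤ m) (a b : K) (hA : Aniso a b)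
    (s : ↥(Cfsg.isometryGroup K (Cfsg.quadFormMinus m K a b))) (vs : List (MI m → K))
    (hvs : ∀ v ∈ vs, Cfsg.quadFormMinus m K a b v ≠ 0)
    (hs : ((s : GL (MI m) K) : Matrix (MI m) (MI m) K)
        = (vs.map (fun v => Cfsg.reflectionMatrix (Cfsg.quadFormMinus m K a b) v)).prod) :
    s ∈ Cfsg.Omega K (Cfsg.quadFormMinus m K a b) ↔ Even vs.length := by
  have : CharP K 2 := CharTwo.of_one_ne_zero_of_two_eq_zero one_ne_zero h2
  have hS : Sep (minusQ m K a b) := Cfsg.Agent.Lib.Helper45.OmegaCenter.sep_minusQ' m a b hA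
  have hG : Good (minusQ m K a b) := good_of_card' hS (Or.inr (card_MI_ne m hm))
  have h1 := Cfsg.Agent.Lib.Helper44.OMat.mem_omega_iff (minusQ m K a b) s
  have h3 : isoEquiv (minusQ m K a b) s = (vs.map (refl (minusQ m K a b))).prod :=
    isoEquiv_eq_prod (minusQ m K a b) s vs (fun x => by
      rw [hs]
      exact prod_reflection_mulVec (minusQ m K a b) vs x)
  rw [h3] at h1
  exact h1.trans (mem_commutator_iff_two hS hG vs hvs)

end Parity

section Iso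

variable {F₀ : Type v} [Field F₀] [Fintype F₀] {F : Type u} [Field F] [Fintype F] (j : F₀ →+* F)

/-- base change maps isometries to isometries -/
theorem iso_map (hMS : Cfsg.Agent.Lib.Helper44.MCentStmt.MapSim.{u, v}) (m : ℕ) (a b : F₀)
    (g : GL (MI m) F₀) (hg : g ∈ Cfsg.isometryGroup F₀ (Cfsg.quadFormMinus m F₀ a b)) :
    Matrix.GeneralLinearGroup.map j g
      ∈ Cfsg.isometryGroup F (Cfsg.quadFormMinus m F (j a) (j b)) := by
  obtain ⟨c, hc⟩ := hMS F₀ F j m a b g (iso_le_GO _ hg)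
  rw [mem_iso_iff'] at hg ⊢
  have h1 : (c : F) = j 1 :=
    mult_map j m a b (g : Matrix (MI m) (MI m) F₀) 1 c (fun v => by rw [hg, one_mul]) hc
  intro v
  rw [hc, h1, map_one, one_mul]

/-- base change of isometries, as a homomorphism -/
def isoMap (hMS : Cfsg.Agent.Lib.Helper44.MCentStmt.MapSim.{u, v}) (m : ℕ) (a b : F₀) :
    ↥(Cfsg.isometryGroup F₀ (Cfsg.quadFormMinus m F₀ a b)) →*
      ↥(Cfsg.isometryGroup F (Cfsg.quadFormMinus m F (j a) (j b))) where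
  toFun g := ⟨Matrix.GeneralLinearGroup.map j g, iso_map j hMS m a b g g.2⟩
  map_one' := Subtype.ext (map_one _)
  map_mul' _ _ := Subtype.ext (map_mul _ _ _)

theorem omega_map (hMS : Cfsg.Agent.Lib.Helper44.MCentStmt.MapSim.{u, v}) (m : ℕ) (a b : F₀)
    (s : ↥(Cfsg.isometryGroup F₀ (Cfsg.quadFormMinus m F₀ a b)))
    (hs : s ∈ Cfsg.Omega F₀ (Cfsg.quadFormMinus m F₀ a b)) :
    isoMap j hMS m a b s ∈ Cfsg.Omega F (Cfsg.quadFormMinus m F (j a) (j b)) :=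
  Cfsg.Agent.Lib.Helper44.OMat.map_mem_commutator (isoMap j hMS m a b) hs

end Iso

section Main

open Cfsg.Agent.Lib.Helper44.OMat

set_option maxHeartbeats 3200000 in
theorem main (hII : InndiagInn2.{u}) (hII₀ : InndiagInn2.{v})
    (hK : KerPhiMinus.{u}) (hK₀ : KerPhiMinus.{v})
    (hMS : Cfsg.Agent.Lib.Helper44.MCentStmt.MapSim.{u, v}) :
    Cfsg.Agent.Lib.Helper44.MCentStmt.CompatTwo.{u, v} := by
  intro F₀ _ _ F _ _ j m hm a₀ b₀ hA₀ hA h2 g₀ g hgg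
  have h2₀ : (2 : F₀) = 0 := by
    apply j.injective
    rw [map_ofNat, map_zero]
    exact h2
  rw [hII F m hm (j a₀) (j b₀) hA h2, hII₀ F₀ m hm a₀ b₀ hA₀ h2₀, inn_eq, inn_eq]
  have hgGL : (g : GL (MI m) F) = Matrix.GeneralLinearGroup.map j (g₀ : GL (MI m) F₀) :=
    Units.ext hgg
  constructor
  · rintro ⟨ω₀, hω₀⟩
    have hω₀' : Phi (Cfsg.quadFormMinus m F₀ a₀ b₀) (inclΩ _ ω₀) = Phi _ g₀ := hω₀
    have hz₀ : Phi (Cfsg.quadFormMinus m F₀ a₀ b₀) ((inclΩ _ ω₀)⁻¹ * g₀) = 1 := by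
      rw [map_mul, map_inv, hω₀', inv_mul_cancel]
    obtain ⟨c₀, hc₀⟩ := hK₀ F₀ m hm a₀ b₀ hA₀ _ hz₀
    have hM : ((((inclΩ _ ω₀)⁻¹ * g₀ : GOq (Cfsg.quadFormMinus m F₀ a₀ b₀)) : GL (MI m) F₀)
        : Matrix (MI m) (MI m) F₀) = c₀ • 1 := by
      apply matrix_ext_mulVec
      intro x
      rw [hc₀, Matrix.smul_mulVec, Matrix.one_mulVec]
    obtain ⟨ω, hωdef⟩ : ∃ ω : ↥(Cfsg.Omega F (Cfsg.quadFormMinus m F (j a₀) (j b₀))),
        ω = ⟨isoMap j hMS m a₀ b₀ ω₀.1, omega_map j hMS m a₀ b₀ ω₀.1 ω₀.2⟩ := ⟨_, rfl⟩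
    refine ⟨ω, ?_⟩
    show Phi _ (inclΩ _ ω) = Phi _ g
    have hz : Phi (Cfsg.quadFormMinus m F (j a₀) (j b₀)) ((inclΩ _ ω)⁻¹ * g) = 1 := by
      apply Cfsg.Agent.Lib.Helper45.OmegaAutKer.Phi_eq_one_of_scalar _ _ (j c₀)
      intro x
      have e : (((inclΩ _ ω)⁻¹ * g : GOq (Cfsg.quadFormMinus m F (j a₀) (j b₀))) : GL (MI m) F)
          = Matrix.GeneralLinearGroup.map j
            (((inclΩ _ ω₀)⁻¹ * g₀ : GOq (Cfsg.quadFormMinus m F₀ a₀ b₀)) : GL (MI m) F₀) := by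
        rw [hωdef]
        show (Matrix.GeneralLinearGroup.map j
            ((ω₀ : ↥(Cfsg.isometryGroup F₀ (Cfsg.quadFormMinus m F₀ a₀ b₀))) : GL (MI m) F₀))⁻¹
            * (g : GL (MI m) F)
          = Matrix.GeneralLinearGroup.map j
            (((ω₀ : ↥(Cfsg.isometryGroup F₀ (Cfsg.quadFormMinus m F₀ a₀ b₀))) : GL (MI m) F₀)⁻¹
              * (g₀ : GL (MI m) F₀))
        rw [hgGL, map_mul, map_inv]
      rw [e]
      have e2 := scalar_map j _ c₀ hM
      show Matrix.map _ j *ᵥ x = j c₀ • x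
      rw [e2, Matrix.smul_mulVec, Matrix.one_mulVec]
    rw [map_mul, map_inv] at hz
    exact inv_mul_eq_one.mp hz
  · rintro ⟨ω, hω⟩
    have hω' : Phi (Cfsg.quadFormMinus m F (j a₀) (j b₀)) (inclΩ _ ω) = Phi _ g := hω
    have hz : Phi (Cfsg.quadFormMinus m F (j a₀) (j b₀)) ((inclΩ _ ω)⁻¹ * g) = 1 := by
      rw [map_mul, map_inv, hω', inv_mul_cancel]
    obtain ⟨c, hc⟩ := hK F m hm (j a₀) (j b₀) hA _ hz
    have hzM : ((((inclΩ _ ω)⁻¹ * g : GOq (Cfsg.quadFormMinus m F (j a₀) (j b₀))) : GL (MI m) F)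
        : Matrix (MI m) (MI m) F) = c • 1 := by
      apply matrix_ext_mulVec
      intro x
      rw [hc, Matrix.smul_mulVec, Matrix.one_mulVec]
    have hgω : (g : GL (MI m) F)
        = ((ω : ↥(Cfsg.isometryGroup F (Cfsg.quadFormMinus m F (j a₀) (j b₀)))) : GL (MI m) F)
          * (((inclΩ _ ω)⁻¹ * g : GOq (Cfsg.quadFormMinus m F (j a₀) (j b₀))) : GL (MI m) F) := by
      show _ = ((ω : ↥(Cfsg.isometryGroup F (Cfsg.quadFormMinus m F (j a₀) (j b₀)))) : GL (MI m) F)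
        * (((ω : ↥(Cfsg.isometryGroup F (Cfsg.quadFormMinus m F (j a₀) (j b₀)))) : GL (MI m) F)⁻¹
          * (g : GL (MI m) F))
      rw [mul_inv_cancel_left]
    have hM1 : ((g : GL (MI m) F) : Matrix (MI m) (MI m) F)
        = c • (((ω : ↥(Cfsg.isometryGroup F (Cfsg.quadFormMinus m F (j a₀) (j b₀))))
            : GL (MI m) F) : Matrix (MI m) (MI m) F) := by
      rw [hgω, Units.val_mul, hzM, Matrix.mul_smul, Matrix.mul_one]
    obtain ⟨μ₀, hμ₀⟩ := g₀.2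
    have hchar : CharP F₀ 2 := CharTwo.of_one_ne_zero_of_two_eq_zero one_ne_zero h2₀
    obtain ⟨c₀, hc₀⟩ := FiniteField.isSquare_of_char_two (ringChar.eq F₀ 2) (μ₀ : F₀)
    have hc₀0 : c₀ ≠ 0 := by
      rintro rfl
      exact μ₀.ne_zero (by rw [hc₀, mul_zero])
    have hgm : ∀ v, Cfsg.quadFormMinus m F (j a₀) (j b₀)
        (((g₀ : GL (MI m) F₀) : Matrix (MI m) (MI m) F₀).map j *ᵥ v)
          = (c * c) * Cfsg.quadFormMinus m F (j a₀) (j b₀) v := by
      intro v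
      rw [← hgg, hM1, Matrix.smul_mulVec]
      have h1 := (mem_iso_iff' _ _).mp ω.1.2 v
      have h3 := q_smul (minusQ m F (j a₀) (j b₀)) c
        ((((ω : ↥(Cfsg.isometryGroup F (Cfsg.quadFormMinus m F (j a₀) (j b₀))))
            : GL (MI m) F) : Matrix (MI m) (MI m) F) *ᵥ v)
      rw [coe_minusQ] at h3
      rw [h3, h1]
    have hcc : c = j c₀ := by
      have h1 : c * c = j (μ₀ : F₀) :=
        mult_map j m a₀ b₀ ((g₀ : GL (MI m) F₀) : Matrix (MI m) (MI m) F₀) μ₀ (c * c) hμ₀ hgm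
      rw [hc₀, map_mul] at h1
      have h3 : (c - j c₀) ^ 2 = 0 := by
        linear_combination h1 + (j c₀ * j c₀ - c * j c₀) * h2
      exact sub_eq_zero.mp ((pow_eq_zero_iff two_ne_zero).mp h3)
    have hc0 : c ≠ 0 := by
      rw [hcc]
      exact (map_ne_zero j).mpr hc₀0
    obtain ⟨d₀, hd₀⟩ : ∃ d₀ : GL (MI m) F₀, (d₀ : Matrix (MI m) (MI m) F₀) = c₀ • 1 :=
      ⟨Matrix.GeneralLinearGroup.scalar (MI m) (Units.mk0 c₀ hc₀0), by
        ext i k
        by_cases h : i = k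
        · subst h; simp
        · simp [Matrix.one_apply_ne h, h]⟩
    obtain ⟨g₁, hg₀⟩ : ∃ g₁ : GL (MI m) F₀, (g₀ : GL (MI m) F₀) = g₁ * d₀ :=
      ⟨(g₀ : GL (MI m) F₀) * d₀⁻¹, (inv_mul_cancel_right _ _).symm⟩
    have hg₀M : ((g₀ : GL (MI m) F₀) : Matrix (MI m) (MI m) F₀)
        = c₀ • (g₁ : Matrix (MI m) (MI m) F₀) := by
      rw [hg₀, Units.val_mul, hd₀, Matrix.mul_smul, Matrix.mul_one]
    have hg₁ : g₁ ∈ Cfsg.isometryGroup F₀ (Cfsg.quadFormMinus m F₀ a₀ b₀) := by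
      rw [mem_iso_iff']
      intro v
      have h1 := hμ₀ v
      rw [hg₀M, Matrix.smul_mulVec] at h1
      have h3 := q_smul (minusQ m F₀ a₀ b₀) c₀ ((g₁ : Matrix (MI m) (MI m) F₀) *ᵥ v)
      rw [coe_minusQ] at h3
      rw [h3, hc₀] at h1
      exact mul_left_cancel₀ (mul_ne_zero hc₀0 hc₀0) h1
    obtain ⟨s₁, hs₁def⟩ : ∃ s₁ : ↥(Cfsg.isometryGroup F₀ (Cfsg.quadFormMinus m F₀ a₀ b₀)),
        s₁ = ⟨g₁, hg₁⟩ := ⟨_, rfl⟩
    have hs₁M : ((s₁ : GL (MI m) F₀) : Matrix (MI m) (MI m) F₀) = (g₁ : Matrix (MI m) (MI m) F₀) := by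
      rw [hs₁def]
    -- the base change of `s₁` is `ω`
    have hM2 : ((g : GL (MI m) F) : Matrix (MI m) (MI m) F)
        = c • ((g₁ : Matrix (MI m) (MI m) F₀).map j) := by
      rw [hgg, hg₀M, hcc]
      ext i k
      simp
    have hteq : isoMap j hMS m a₀ b₀ s₁
        = (ω : ↥(Cfsg.isometryGroup F (Cfsg.quadFormMinus m F (j a₀) (j b₀)))) := by
      apply Subtype.ext
      apply Units.ext
      show ((s₁ : GL (MI m) F₀) : Matrix (MI m) (MI m) F₀).map j = _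
      rw [hs₁M]
      exact smul_right_injective _ hc0 (hM2.symm.trans hM1)
    obtain ⟨vs, hvs, hprod⟩ := exists_refl_prod m hm a₀ b₀ hA₀ s₁
    have hvs' : ∀ w ∈ vs.map (fun v => (j ∘ v : MI m → F)),
        Cfsg.quadFormMinus m F (j a₀) (j b₀) w ≠ 0 := by
      intro w hw
      obtain ⟨v, hv, rfl⟩ := List.mem_map.mp hw
      rw [q_comp]
      exact (map_ne_zero j).mpr (hvs v hv)
    have ht : (((isoMap j hMS m a₀ b₀ s₁ : ↥(Cfsg.isometryGroup F (Cfsg.quadFormMinus m F (j a₀) (j b₀))))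
          : GL (MI m) F) : Matrix (MI m) (MI m) F)
        = ((vs.map (fun v => (j ∘ v : MI m → F))).map
          (fun w => Cfsg.reflectionMatrix (Cfsg.quadFormMinus m F (j a₀) (j b₀)) w)).prod := by
      show ((s₁ : GL (MI m) F₀) : Matrix (MI m) (MI m) F₀).map j = _
      rw [hprod, prod_refl_map]
    have hev : Even vs.length := by
      have h1 := (mem_omega_iff_even h2 m hm (j a₀) (j b₀) hA _ _ hvs' ht).mp (by
        rw [hteq]
        exact ω.2)
      rwa [List.length_map] at h1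
    have hs₁ : s₁ ∈ Cfsg.Omega F₀ (Cfsg.quadFormMinus m F₀ a₀ b₀) :=
      (mem_omega_iff_even h2₀ m hm a₀ b₀ hA₀ s₁ vs hvs hprod).mpr hev
    refine ⟨⟨s₁, hs₁⟩, ?_⟩
    show Phi _ (inclΩ _ ⟨s₁, hs₁⟩) = Phi _ g₀
    have hz₀ : Phi (Cfsg.quadFormMinus m F₀ a₀ b₀) ((inclΩ _ ⟨s₁, hs₁⟩)⁻¹ * g₀) = 1 := by
      apply Cfsg.Agent.Lib.Helper45.OmegaAutKer.Phi_eq_one_of_scalar _ _ c₀
      intro x
      have e : (((inclΩ _ ⟨s₁, hs₁⟩)⁻¹ * g₀ : GOq (Cfsg.quadFormMinus m F₀ a₀ b₀)) : GL (MI m) F₀)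
          = d₀ := by
        show (s₁ : GL (MI m) F₀)⁻¹ * (g₀ : GL (MI m) F₀) = d₀
        rw [hs₁def, hg₀]
        show g₁⁻¹ * (g₁ * d₀) = d₀
        rw [inv_mul_cancel_left]
      rw [e, hd₀, Matrix.smul_mulVec, Matrix.one_mulVec]
    rw [map_mul, map_inv] at hz₀
    exact inv_mul_eq_one.mp hz₀

end Main

end Cfsg.Agent.Lib.Helper41.MCentCT
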