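import Mathlib
import Cfsg.Agent.Lib.Helper44.GFStmt
import Cfsg.Agent.Lib.Helper44.GFHs
import Cfsg.Agent.Lib.Helper41.MCentCT
import Cfsg.Agent.Lib.Helper45.MinusInndiag

set_option autoImplicit false

/-! Piece [RAT] of S2717: rational inner-diagonal elements with square multiplier become inner
after conjugation by the splitting matrix `Hs`. -/

namespace Cfsg.Agent.Lib.Helper41.GFRAT

open Matrix Module QuadraticMap
open Cfsg.Agent.Lib.Helper43.OPlAut Cfsg.Agent.Lib.Helper45.OmegaAut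
  Cfsg.Agent.Lib.Helper43.H90Fin Cfsg.Agent.Lib.Helper45.MinusInndiag
open Cfsg.Agent.Lib.Helper44.OFld0 Cfsg.Agent.Lib.Helper44.OFld1
  Cfsg.Agent.Lib.Helper44.OFldStmt Cfsg.Agent.Lib.Helper44.MFld0
  Cfsg.Agent.Lib.Helper44.MFldStmt Cfsg.Agent.Lib.Helper44.MCentStmt
  Cfsg.Agent.Lib.Helper44.GFStmt Cfsg.Agent.Lib.Helper44.GFHs
open Cfsg.Agent.Lib.Helper44.NegPairs Cfsg.Agent.Lib.Helper44.QSpace
open Cfsg.Agent.Lib.Helper44.OGroup Cfsg.Agent.Lib.Helper44.OMat Cfsg.Agent.Lib.Helper44.OMat2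
open Cfsg.Agent.Lib.Helper45.OmegaAutPsi Cfsg.Agent.Lib.Helper45.OmegaAutMain
  Cfsg.Agent.Lib.Helper45.OmegaInndiag

universe u v

section General

variable {K : Type*} [Field K] [Fintype K] {ι : Type} [Fintype ι] [DecidableEq ι]

/-- the determinant of a reflection matrix -/
theorem det_reflectionMatrix (Q : QuadraticForm K (ι → K)) {v : ι → K} (hv : Q v ≠ 0) :
    (Cfsg.reflectionMatrix (⇑Q) v).det = -1 := by
  have h1 := det_rfl' Q hv
  have h2 := congrArg (fun t : Kˣ => (t : K)) h1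
  simp only [Matrix.GeneralLinearGroup.val_det_apply, Units.val_neg, Units.val_one] at h2
  rw [← symm_refl_matrix Q v]
  exact h2

/-- the determinant of a product of reflection matrices -/
theorem det_prod_reflectionMatrix (Q : QuadraticForm K (ι → K)) (vs : List (ι → K))
    (hvs : ∀ v ∈ vs, Q v ≠ 0) :
    ((vs.map (fun v => Cfsg.reflectionMatrix (⇑Q) v)).prod).det = (-1) ^ vs.length := by
  induction vs with
  | nil => simp
  | cons w ws ih =>
    rw [List.map_cons, List.prod_cons, Matrix.det_mul,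
      det_reflectionMatrix Q (hvs w List.mem_cons_self),
      ih (fun v hv => hvs v (List.mem_cons_of_mem _ hv)), List.length_cons, pow_succ]
    ring

/-- membership in `G0` only depends on the image under `Phi` -/
theorem mem_G0_of_Phi_eq (Q : QuadraticForm K (ι → K)) (h2 : (2 : K) ≠ 0) (hS : Sep Q)
    {v₀ : ι → K} (hv₀ : Q v₀ ≠ 0) {k : ℕ} (hk : Fintype.card ι = 2 * k)
    (hn : 5 ≤ Fintype.card ι) (g₁ g₀ : ↥(Cfsg.Geo.quadSimilarityGroup (F := K) ⇑Q))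
    (h1 : g₁ ∈ G0 Q hv₀ k) (hPhi : Phi ⇑Q g₁ = Phi ⇑Q g₀) : g₀ ∈ G0 Q hv₀ k := by
  have hker : g₁⁻¹ * g₀ ∈ (Phi ⇑Q).ker := by
    rw [MonoidHom.mem_ker, map_mul, map_inv, hPhi]
    exact inv_mul_cancel _
  have h3 := ker_le_G0 Q h2 hS hv₀ hk hn hker
  have h4 := Subgroup.mul_mem _ h1 h3
  rwa [mul_inv_cancel_left] at h4

end General

section Rect

variable {F : Type*} [Field F]

theorem rect_ext_mulVec {m n : Type} [Fintype n] [DecidableEq n] {M N : Matrix m n F}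
    (h : ∀ x, M *ᵥ x = N *ᵥ x) : M = N := by
  ext i c
  have h1 := congrFun (h (Pi.single c 1)) i
  simpa using h1

end Rect

section HsRefl

variable {F : Type u} [Field F]

/-- conjugating a reflection of the minus form by `Hs` gives a reflection of the plus form -/
theorem refl_Hs (k : ℕ) (ω ω' : F) (y : MI k → F) :
    Cfsg.reflectionMatrix (Cfsg.quadFormPlus (k + 1) F) (Hs k ω ω' *ᵥ y) * Hs k ω ω' =
      Hs k ω ω' * Cfsg.reflectionMatrix (Cfsg.quadFormMinus k F (ω + ω') (ω * ω')) y := by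
  apply rect_ext_mulVec
  intro x
  rw [← Matrix.mulVec_mulVec, ← Matrix.mulVec_mulVec]
  have h1 := reflection_mulVec (plusQ (k + 1) F) (Hs k ω ω' *ᵥ y) (Hs k ω ω' *ᵥ x)
  have h2 := reflection_mulVec (minusQ k F (ω + ω') (ω * ω')) y x
  rw [coe_plusQ] at h1
  rw [coe_minusQ] at h2
  rw [h1, h2, reflE_apply, reflE_apply, Matrix.mulVec_sub, Matrix.mulVec_smul]
  have hq : ∀ z : MI k → F, plusQ (k + 1) F (Hs k ω ω' *ᵥ z) =
      minusQ k F (ω + ω') (ω * ω') z := hsIso F k ω ω'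
  have hp : polar (plusQ (k + 1) F) (Hs k ω ω' *ᵥ x) (Hs k ω ω' *ᵥ y) =
      polar (minusQ k F (ω + ω') (ω * ω')) x y := by
    unfold polar
    rw [← Matrix.mulVec_add, hq, hq, hq]
  rw [hq, hp]

theorem prod_refl_Hs (k : ℕ) (ω ω' : F) (ys : List (MI k → F)) :
    ((ys.map (fun y => Hs k ω ω' *ᵥ y)).map
        (fun u => Cfsg.reflectionMatrix (Cfsg.quadFormPlus (k + 1) F) u)).prod * Hs k ω ω' =
      Hs k ω ω' * (ys.map
        (fun y => Cfsg.reflectionMatrix (Cfsg.quadFormMinus k F (ω + ω') (ω * ω')) y)).prod := by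
  induction ys with
  | nil => simp
  | cons w ws ih =>
    rw [List.map_cons, List.map_cons, List.prod_cons, List.map_cons, List.prod_cons,
      Matrix.mul_assoc, ih, ← Matrix.mul_assoc, refl_Hs, Matrix.mul_assoc]

end HsRefl

section Main

open Cfsg.Agent.Lib.Helper41.MCentCT

set_option maxHeartbeats 1600000 in
theorem main (hSF : SqOfFix.{u}) (hHI : HsInv.{u}) : RatOmega.{u, v} := by
  intro F₀ _ _ F _ _ j σ hσ hfix k hk a₀ b₀ hA h2 ω ω' hsum hprod hne g₀ hin hsq g hg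
  obtain ⟨c₀, hc₀⟩ := hsq
  have h2₀ : (2 : F₀) ≠ 0 := by
    intro h
    apply h2
    rw [← map_ofNat j 2, h, map_zero]
  have hS₀ : Sep (minusQ k F₀ a₀ b₀) := sep_minusQ h2₀ k a₀ b₀ hA
  have hv₀ : minusQ k F₀ a₀ b₀ (e0 k F₀) ≠ 0 := by
    show Cfsg.quadFormMinus k F₀ a₀ b₀ (e0 k F₀) ≠ 0
    rw [q_e0]
    exact one_ne_zero
  have hcardM : Fintype.card (MI k) = 2 * (k + 1) := by
    simp only [Fintype.card_sum, Fintype.card_fin]
    omega
  -- step 1: `det g₀ = μ(g₀)^(k+1)`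
  have hG0 : g₀ ∈ G0 (minusQ k F₀ a₀ b₀) hv₀ (k + 1) := by
    rw [inndiag_minus_eq h2₀ k hA hv₀] at hin
    obtain ⟨g₁, hg₁, hPhi⟩ := hin
    exact mem_G0_of_Phi_eq (minusQ k F₀ a₀ b₀) h2₀ hS₀ hv₀ hcardM (by rw [hcardM]; omega)
      g₁ g₀ hg₁ hPhi
  have hdet := (dl_eq_one_iff (minusQ k F₀ a₀ b₀) hv₀ (k + 1) g₀).mp
    ((mem_G0 _ hv₀ (k + 1) g₀).mp hG0)
  have hmu : mu (minusQ k F₀ a₀ b₀) g₀ = c₀ ^ 2 :=
    mu_unique (minusQ k F₀ a₀ b₀) hv₀ g₀ (c₀ ^ 2) (fun v => by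
      rw [Units.val_pow_eq_pow_val]
      exact hc₀ v)
  rw [hmu, Units.val_pow_eq_pow_val] at hdet
  -- step 2: the isometry `g₁ = c₀⁻¹ g₀`
  obtain ⟨d₀, hd₀⟩ : ∃ d₀ : GL (MI k) F₀, (d₀ : Matrix (MI k) (MI k) F₀) = (c₀ : F₀) • 1 :=
    ⟨Matrix.GeneralLinearGroup.scalar (MI k) c₀, by
      ext i c
      by_cases h : i = c
      · subst h; simp
      · simp [Matrix.one_apply_ne h, h]⟩
  obtain ⟨g₁, hg₀⟩ : ∃ g₁ : GL (MI k) F₀, (g₀ : GL (MI k) F₀) = g₁ * d₀ :=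
    ⟨(g₀ : GL (MI k) F₀) * d₀⁻¹, (inv_mul_cancel_right _ _).symm⟩
  have hg₀M : ((g₀ : GL (MI k) F₀) : Matrix (MI k) (MI k) F₀)
      = (c₀ : F₀) • (g₁ : Matrix (MI k) (MI k) F₀) := by
    rw [hg₀, Units.val_mul, hd₀, Matrix.mul_smul, Matrix.mul_one]
  have hg₁ : g₁ ∈ Cfsg.isometryGroup F₀ (Cfsg.quadFormMinus k F₀ a₀ b₀) := by
    rw [mem_iso_iff']
    intro v
    have h1 := hc₀ v
    rw [hg₀M, Matrix.smul_mulVec] at h1
    have h3 := q_smul (minusQ k F₀ a₀ b₀) (c₀ : F₀) ((g₁ : Matrix (MI k) (MI k) F₀) *ᵥ v)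
    rw [coe_minusQ] at h3
    rw [h3, pow_two] at h1
    exact mul_left_cancel₀ (mul_ne_zero c₀.ne_zero c₀.ne_zero) h1
  have hdet₁ : (g₁ : Matrix (MI k) (MI k) F₀).det = 1 := by
    rw [hg₀M, Matrix.det_smul, hcardM, ← pow_mul] at hdet
    have hc : (c₀ : F₀) ^ (2 * (k + 1)) ≠ 0 := pow_ne_zero _ c₀.ne_zero
    exact mul_left_cancel₀ hc (hdet.trans (mul_one _).symm)
  -- step 3: `g₁` is a product of an even number of reflections
  obtain ⟨vs, hvs, hprodM⟩ := exists_refl_prod k hk a₀ b₀ hA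
    (⟨g₁, hg₁⟩ : ↥(Cfsg.isometryGroup F₀ (Cfsg.quadFormMinus k F₀ a₀ b₀)))
  have hg₁M : (g₁ : Matrix (MI k) (MI k) F₀) = (vs.map (fun v =>
      Cfsg.reflectionMatrix (Cfsg.quadFormMinus k F₀ a₀ b₀) v)).prod := hprodM
  have heven : Even vs.length := by
    have h1 := det_prod_reflectionMatrix (minusQ k F₀ a₀ b₀) vs hvs
    rw [coe_minusQ, ← hg₁M, hdet₁] at h1
    by_contra hodd
    rw [Nat.not_even_iff_odd] at hodd
    rw [hodd.neg_one_pow] at h1
    apply h2₀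
    linear_combination h1
  -- step 4: the corresponding reflections of the plus form
  obtain ⟨ys, hys⟩ : ∃ ys : List (MI k → F), ys = vs.map (fun v => (j ∘ v : MI k → F)) :=
    ⟨_, rfl⟩
  obtain ⟨us, hus⟩ : ∃ us : List (PI k → F), us = ys.map (fun y => Hs k ω ω' *ᵥ y) := ⟨_, rfl⟩
  have hQu : ∀ v : MI k → F₀, Cfsg.quadFormPlus (k + 1) F (Hs k ω ω' *ᵥ (j ∘ v))
      = j (Cfsg.quadFormMinus k F₀ a₀ b₀ v) := by
    intro v
    rw [hsIso F k ω ω' (j ∘ v), hsum, hprod, q_comp]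
  have hR : (us.map (fun u => Cfsg.reflectionMatrix (Cfsg.quadFormPlus (k + 1) F) u)).prod
      * Hs k ω ω' = Hs k ω ω' * (g₁ : Matrix (MI k) (MI k) F₀).map j := by
    rw [hus, prod_refl_Hs, hys, hsum, hprod, ← prod_refl_map, ← hg₁M]
  obtain ⟨H', hH1, -⟩ := hHI F k ω ω' hne
  have hgR : ((g : GL (PI k) F) : Matrix (PI k) (PI k) F) = j (c₀ : F₀) •
      (us.map (fun u => Cfsg.reflectionMatrix (Cfsg.quadFormPlus (k + 1) F) u)).prod := by
    have h1 : ((g : GL (PI k) F) : Matrix (PI k) (PI k) F) * Hs k ω ω' = (j (c₀ : F₀) •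
        (us.map (fun u => Cfsg.reflectionMatrix (Cfsg.quadFormPlus (k + 1) F) u)).prod)
          * Hs k ω ω' := by
      rw [hg, hg₀M, Matrix.smul_mul, hR]
      have e : ((c₀ : F₀) • (g₁ : Matrix (MI k) (MI k) F₀)).map j
          = j (c₀ : F₀) • (g₁ : Matrix (MI k) (MI k) F₀).map j := by
        ext i c
        simp
      rw [e, Matrix.mul_smul]
    have h3 := congrArg (fun M => M * H') h1
    simp only [Matrix.mul_assoc, hH1, Matrix.mul_one] at h3
    exact h3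
  -- step 5: the product of these reflections lies in `Ω`
  have hSP : Sep (plusQ (k + 1) F) := sep_plusQ (k + 1)
  have husne : ∀ u ∈ us, plusQ (k + 1) F u ≠ 0 := by
    intro u hu
    rw [hus, hys, List.map_map] at hu
    obtain ⟨v, hv, rfl⟩ := List.mem_map.mp hu
    show Cfsg.quadFormPlus (k + 1) F (Hs k ω ω' *ᵥ (j ∘ v)) ≠ 0
    rw [hQu]
    exact (map_ne_zero j).mpr (hvs v hv)
  have hussq : ∀ u ∈ us, IsSquare (plusQ (k + 1) F u) := by
    intro u hu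
    rw [hus, hys, List.map_map] at hu
    obtain ⟨v, hv, rfl⟩ := List.mem_map.mp hu
    show IsSquare (Cfsg.quadFormPlus (k + 1) F (Hs k ω ω' *ᵥ (j ∘ v)))
    rw [hQu]
    exact hSF F σ hσ _ ((hfix _).mpr ⟨_, rfl⟩)
  obtain ⟨ρ, hρ⟩ : ∃ ρ : ↥(Cfsg.isometryGroup F ⇑(plusQ (k + 1) F)),
      ρ = (isoEquiv (plusQ (k + 1) F)).symm ((us.map (refl (plusQ (k + 1) F))).prod) := ⟨_, rfl⟩
  have hρv : ∀ x, ((ρ : GL (PI k) F) : Matrix (PI k) (PI k) F) *ᵥ x
      = (us.map (reflE (plusQ (k + 1) F))).prod x := by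
    intro x
    rw [hρ]
    exact symm_prod_matrix_mulVec (plusQ (k + 1) F) us x
  have hρM : ((ρ : GL (PI k) F) : Matrix (PI k) (PI k) F)
      = (us.map (fun u => Cfsg.reflectionMatrix (Cfsg.quadFormPlus (k + 1) F) u)).prod := by
    apply matrix_ext_mulVec
    intro x
    rw [hρv x]
    exact (prod_reflection_mulVec (plusQ (k + 1) F) us x).symm
  have hcardP : 2 ≤ Fintype.card (PI k) := by
    simp only [Fintype.card_sum, Fintype.card_fin]
    omega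
  have hρΩ : ρ ∈ Cfsg.Omega F ⇑(plusQ (k + 1) F) := by
    rw [mem_omega_iff_of_mulVec h2 (plusQ (k + 1) F) hSP hcardP ρ us husne hρv]
    refine ⟨?_, ?_⟩
    · rw [hus, hys, List.length_map, List.length_map]
      exact heven
    · apply List.prod_induction (fun x => IsSquare x)
      · intro a b ha hb
        exact ha.mul hb
      · exact IsSquare.one
      · intro x hx
        obtain ⟨u, hu, rfl⟩ := List.mem_map.mp hx
        exact hussq u hu
  -- conclusion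
  rw [inn_eq]
  refine ⟨⟨ρ, hρΩ⟩, ?_⟩
  show Phi (Cfsg.quadFormPlus (k + 1) F) (inclΩ (Cfsg.quadFormPlus (k + 1) F) ⟨ρ, hρΩ⟩)
    = Phi (Cfsg.quadFormPlus (k + 1) F) g
  have hz : Phi (Cfsg.quadFormPlus (k + 1) F)
      ((inclΩ (Cfsg.quadFormPlus (k + 1) F) ⟨ρ, hρΩ⟩)⁻¹ * g) = 1 := by
    apply Cfsg.Agent.Lib.Helper45.OmegaAutKer.Phi_eq_one_of_scalar _ _ (j (c₀ : F₀))
    intro x
    show (((ρ : GL (PI k) F)⁻¹ * (g : GL (PI k) F) : GL (PI k) F) : Matrix (PI k) (PI k) F) *ᵥ x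
      = _
    rw [Units.val_mul, ← Matrix.mulVec_mulVec, hgR, ← hρM, Matrix.smul_mulVec, Matrix.mulVec_smul,
      Matrix.mulVec_mulVec, ← Units.val_mul, inv_mul_cancel, Units.val_one, Matrix.one_mulVec]
  rw [map_mul, map_inv] at hz
  exact inv_mul_eq_one.mp hz

end Main

end Cfsg.Agent.Lib.Helper41.GFRAT
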