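import Mathlib

/-!
# S3360, piece P9: the index of the stability group of `N / Z` divides `|Aut (N / Z)|`
-/

set_option autoImplicit false

namespace Cfsg.Agent.Lib.Helper41.HupP9

theorem map_conjNormal_subgroupOf {G : Type*} [Group G] (N Z : Subgroup G) [N.Normal]
    [Z.Normal] (g : G) :
    (Z.subgroupOf N).map ((MulAut.conjNormal g : MulAut N) : N →* N) = Z.subgroupOf N := by
  ext y
  constructor
  · rintro ⟨x, hx, rfl⟩
    have hx' : (x : G) ∈ Z := hx
    show ((MulAut.conjNormal g x : N) : G) ∈ Z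
    rw [MulAut.conjNormal_apply]
    exact ‹Z.Normal›.conj_mem _ hx' g
  · intro hy
    rw [Subgroup.mem_subgroupOf] at hy
    refine ⟨MulAut.conjNormal g⁻¹ y, ?_, ?_⟩
    · show ((MulAut.conjNormal g⁻¹ y : N) : G) ∈ Z
      rw [MulAut.conjNormal_apply]
      exact ‹Z.Normal›.conj_mem _ hy g⁻¹
    · show MulAut.conjNormal g (MulAut.conjNormal g⁻¹ y) = y
      rw [← MulAut.mul_apply, ← map_mul, mul_inv_cancel, map_one, MulAut.one_apply]

theorem index_dvd_card_mulAut {G : Type*} [Group G] [Finite G] (N Z G₁ : Subgroup G) [N.Normal]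
    [Z.Normal] (hG₁ : ∀ g : G, g ∈ G₁ ↔ ∀ y ∈ N, g * y * g⁻¹ * y⁻¹ ∈ Z) :
    G₁.index ∣ Nat.card (MulAut (↥N ⧸ Z.subgroupOf N)) := by
  classical
  let φ : G →* MulAut (↥N ⧸ Z.subgroupOf N) :=
    MonoidHom.mk' (fun g => QuotientGroup.congr (Z.subgroupOf N) (Z.subgroupOf N)
      (MulAut.conjNormal g) (map_conjNormal_subgroupOf N Z g)) (by
      intro g h
      ext x
      induction x using QuotientGroup.induction_on with
      | H x =>
        rw [MulAut.mul_apply, QuotientGroup.congr_mk, QuotientGroup.congr_mk,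
          QuotientGroup.congr_mk, map_mul, MulAut.mul_apply])
  have hφ : ∀ (g : G) (x : N), φ g (QuotientGroup.mk x)
      = QuotientGroup.mk (MulAut.conjNormal g x) := by
    intro g x
    exact QuotientGroup.congr_mk (Z.subgroupOf N) (Z.subgroupOf N) (MulAut.conjNormal g)
      (map_conjNormal_subgroupOf N Z g) x
  have hker : φ.ker = G₁ := by
    ext g
    rw [MonoidHom.mem_ker, hG₁]
    constructor
    · intro h y hy
      have h1 := hφ g ⟨y, hy⟩
      rw [h, MulAut.one_apply] at h1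
      have h2 := (QuotientGroup.eq.mp h1.symm)
      rw [Subgroup.mem_subgroupOf] at h2
      have h3 : (((MulAut.conjNormal g (⟨y, hy⟩ : N))⁻¹ * (⟨y, hy⟩ : N) : N) : G)
          = y⁻¹ * (g * y * g⁻¹ * y⁻¹)⁻¹ * y⁻¹⁻¹ := by
        rw [Subgroup.coe_mul, Subgroup.coe_inv, MulAut.conjNormal_apply]
        group
      rw [h3] at h2
      have h4 := ‹Z.Normal›.conj_mem _ h2 y
      have h5 : y * (y⁻¹ * (g * y * g⁻¹ * y⁻¹)⁻¹ * y⁻¹⁻¹) * y⁻¹ = (g * y * g⁻¹ * y⁻¹)⁻¹ := by
        group
      rw [h5] at h4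
      exact (Subgroup.inv_mem_iff Z).mp h4
    · intro h
      ext x
      induction x using QuotientGroup.induction_on with
      | H x =>
        rw [hφ, MulAut.one_apply]
        apply Eq.symm
        rw [QuotientGroup.eq, Subgroup.mem_subgroupOf]
        have h1 := h x x.2
        have h3 : ((x⁻¹ * MulAut.conjNormal g x : N) : G)
            = (x : G)⁻¹ * (g * x * g⁻¹ * (x : G)⁻¹) * (x : G)⁻¹⁻¹ := by
          rw [Subgroup.coe_mul, Subgroup.coe_inv, MulAut.conjNormal_apply]
          group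
        rw [h3]
        exact ‹Z.Normal›.conj_mem _ h1 _
  rw [← hker, Subgroup.index_ker]
  exact Subgroup.card_subgroup_dvd_card _

end Cfsg.Agent.Lib.Helper41.HupP9
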