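import Mathlib
import Cfsg.Agent.Lib.Helper53.RUStmt

set_option autoImplicit false

/-! Piece [CHAIN] of S2522: a regular unipotent `B` on an `n`-dimensional space has
`(B - 1) ^ n = 0` and `(B - 1) ^ (n - 1) ≠ 0`. -/

namespace Cfsg.Agent.Lib.Helper41.RUCHAIN

open Module Cfsg.Agent.Lib.Helper53.RUStmt

universe u v

section

variable {K : Type u} [Field K] {V : Type v} [AddCommGroup V] [Module K V] [Module.Finite K V]

theorem finrank_le_map_add_ker (N : Module.End K V) (p : Submodule K V) :
    finrank K p ≤ finrank K (p.map N) + finrank K (LinearMap.ker N) := by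
  have h := LinearMap.finrank_range_add_finrank_ker (N.domRestrict p)
  rw [LinearMap.range_domRestrict, LinearMap.ker_domRestrict] at h
  have h2 : finrank K ((LinearMap.ker N).comap p.subtype) ≤ finrank K (LinearMap.ker N) := by
    rw [← Submodule.finrank_map_subtype_eq p ((LinearMap.ker N).comap p.subtype),
      Submodule.map_comap_subtype]
    exact Submodule.finrank_mono inf_le_right
  omega

theorem finrank_ker_pow_le (N : Module.End K V) (h1 : finrank K (LinearMap.ker N) ≤ 1) (k : ℕ) :
    finrank K (LinearMap.ker (N ^ k)) ≤ k := by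
  induction k with
  | zero =>
    have e : LinearMap.ker (N ^ 0) = ⊥ := by
      rw [pow_zero]
      exact LinearMap.ker_id
    rw [e, finrank_bot]
  | succ k ih =>
    have h := finrank_le_map_add_ker N (LinearMap.ker (N ^ (k + 1)))
    have h2 : (LinearMap.ker (N ^ (k + 1))).map N ≤ LinearMap.ker (N ^ k) := by
      rintro _ ⟨x, hx, rfl⟩
      have hx' : (N ^ (k + 1)) x = 0 := hx
      rw [pow_succ] at hx'
      exact hx'
    have h3 := Submodule.finrank_mono h2
    omega

end

theorem main : ChainStmt.{u, v} := by
  intro K _ V _ _ _ B hB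
  obtain ⟨hnil, hrank⟩ := hB
  obtain ⟨N, hN⟩ : ∃ N : Module.End K V, N = B - 1 := ⟨_, rfl⟩
  rw [← hN] at hnil hrank ⊢
  have hker : finrank K (LinearMap.ker N) = 1 := by
    have := LinearMap.finrank_range_add_finrank_ker N
    omega
  constructor
  · have h1 := IsNilpotent.charpoly_eq_X_pow_finrank hnil
    have h2 := LinearMap.aeval_self_charpoly N
    rw [h1] at h2
    simpa using h2
  · by_contra hcon
    push Not at hcon
    have hz : N ^ (finrank K V - 1) = 0 := LinearMap.ext hcon
    have h3 := finrank_ker_pow_le N hker.le (finrank K V - 1)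
    rw [hz, LinearMap.ker_zero, finrank_top] at h3
    omega

end Cfsg.Agent.Lib.Helper41.RUCHAIN
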