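import Mathlib
import Cfsg.Agent.Lib.Helper53.RUStmt

set_option autoImplicit false

/-! Piece [CONJ] of S2522: a regular unipotent endomorphism of `Fin n → K` has a matrix
conjugate to the Jordan block `J`, given the Jordan chain (piece CHAIN). -/

namespace Cfsg.Agent.Lib.Helper41.RUCONJ

open Module Cfsg.Agent.Lib.Helper53.RUStmt

universe u

section

variable {K : Type u} [Field K] {n : ℕ}

/-- linear independence of the Jordan chain -/
theorem chain_indep (N : Module.End K (Fin n → K)) (hN : N ^ n = 0) (v : Fin n → K)
    (hv : (N ^ (n - 1)) v ≠ 0) :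
    LinearIndependent K (fun j : Fin n => (N ^ (n - 1 - j.val)) v) := by
  rw [Fintype.linearIndependent_iff]
  intro c hc
  have key : ∀ i : ℕ, ∀ j : Fin n, n - 1 - j.val = i → c j = 0 := by
    intro i
    induction i using Nat.strong_induction_on with
    | _ i ih =>
      intro j hj
      have h1 := congrArg (fun w => (N ^ (n - 1 - i)) w) hc
      simp only [map_sum, map_smul, map_zero] at h1
      rw [Finset.sum_eq_single j] at h1
      · have e : (N ^ (n - 1 - i)) ((N ^ (n - 1 - j.val)) v) = (N ^ (n - 1)) v := by
          rw [← Module.End.mul_apply, ← pow_add]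
          have hjl := j.isLt
          have e2 : n - 1 - i + (n - 1 - j.val) = n - 1 := by omega
          rw [e2]
        rw [e] at h1
        exact (smul_eq_zero.mp h1).resolve_right hv
      · intro k _ hkj
        by_cases hk : n - 1 - k.val < i
        · rw [ih _ hk k rfl, zero_smul]
        · have hne : n - 1 - k.val ≠ i := by
            intro h
            apply hkj
            apply Fin.ext
            have hjl := j.isLt
            have hkl := k.isLt
            omega
          have e : (N ^ (n - 1 - i)) ((N ^ (n - 1 - k.val)) v) = 0 := by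
            rw [← Module.End.mul_apply, ← pow_add]
            have hkl := k.isLt
            have e2 : n - 1 - i + (n - 1 - k.val) = n + (n - 1 - i + (n - 1 - k.val) - n) := by
              omega
            rw [e2, pow_add, hN, zero_mul]
            rfl
          rw [e, smul_zero]
      · intro h
        exact absurd (Finset.mem_univ j) h
  intro j
  exact key _ j rfl

/-- the column sum against the Jordan block -/
theorem sum_jordan (J : Matrix (Fin n) (Fin n) K)
    (hJ : ∀ i j : Fin n, J i j = if i = j then 1 else if j.val = i.val + 1 then 1 else 0)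
    (f : Fin n → K) (j : Fin n) :
    ∑ k, f k * J k j = f j + (if h : 1 ≤ j.val then f ⟨j.val - 1, by have := j.isLt; omega⟩ else 0) := by
  have e : ∀ k : Fin n, f k * J k j
      = (if k = j then f k else 0) + (if j.val = k.val + 1 then f k else 0) := by
    intro k
    rw [hJ]
    by_cases h1 : k = j
    · subst h1
      simp
    · by_cases h2 : j.val = k.val + 1
      · simp [h1, h2]
      · simp [h1, h2]
  rw [Finset.sum_congr rfl (fun k _ => e k), Finset.sum_add_distrib, Finset.sum_ite_eq' Finset.univ j f]
  congr 1
  · simp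
  · by_cases h : 1 ≤ j.val
    · rw [dif_pos h]
      rw [Finset.sum_eq_single (⟨j.val - 1, by have := j.isLt; omega⟩ : Fin n)]
      · rw [if_pos]
        show j.val = j.val - 1 + 1
        omega
      · intro k _ hk
        rw [if_neg]
        intro h2
        apply hk
        apply Fin.ext
        show k.val = j.val - 1
        omega
      · intro h2
        exact absurd (Finset.mem_univ _) h2
    · rw [dif_neg h]
      apply Finset.sum_eq_zero
      intro k _
      rw [if_neg]
      omega

end

theorem main : ConjPiece.{u} := by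
  intro hChain K _ n J hJ B hB
  obtain ⟨hNn, v, hv⟩ := hChain K (Fin n → K) B hB
  rw [Module.finrank_fin_fun] at hNn hv
  obtain ⟨N, hNdef⟩ : ∃ N : Module.End K (Fin n → K), N = B - 1 := ⟨_, rfl⟩
  rw [← hNdef] at hNn hv
  have hB1 : B = 1 + N := by rw [hNdef]; abel
  have hind := chain_indep N hNn v hv
  have hn : 0 < n := by
    rcases Nat.eq_zero_or_pos n with h0 | h0
    · subst h0
      exact absurd (Subsingleton.elim _ _) hv
    · exact h0
  have : Nonempty (Fin n) := ⟨⟨0, hn⟩⟩
  have hcard : Fintype.card (Fin n) = finrank K (Fin n → K) := by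
    rw [Module.finrank_fin_fun, Fintype.card_fin]
  obtain ⟨bas, hbas⟩ : ∃ bas : Basis (Fin n) K (Fin n → K),
      ⇑bas = fun j : Fin n => (N ^ (n - 1 - j.val)) v :=
    ⟨basisOfLinearIndependentOfCardEqFinrank hind hcard,
      coe_basisOfLinearIndependentOfCardEqFinrank hind hcard⟩
  obtain ⟨P, hP⟩ : ∃ P : Matrix (Fin n) (Fin n) K, P = (Pi.basisFun K (Fin n)).toMatrix bas :=
    ⟨_, rfl⟩
  obtain ⟨Q, hQ⟩ : ∃ Q : Matrix (Fin n) (Fin n) K, Q = bas.toMatrix (Pi.basisFun K (Fin n)) :=
    ⟨_, rfl⟩
  have hPQ : P * Q = 1 := by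
    rw [hP, hQ]
    exact Basis.toMatrix_mul_toMatrix_flip _ _
  have hQP : Q * P = 1 := by
    rw [hP, hQ]
    exact Basis.toMatrix_mul_toMatrix_flip _ _
  have hPe : ∀ i j : Fin n, P i j = ((N ^ (n - 1 - j.val)) v) i := by
    intro i j
    rw [hP, Basis.toMatrix_apply, Pi.basisFun_repr, hbas]
  have hcomm : LinearMap.toMatrix' B * P = P * (J : Matrix (Fin n) (Fin n) K) := by
    ext i j
    have hL : (LinearMap.toMatrix' B * P) i j = (B ((N ^ (n - 1 - j.val)) v)) i := by
      have e1 : (LinearMap.toMatrix' B * P) i j
          = (LinearMap.toMatrix' B).mulVec (fun k => P k j) i := rfl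
      have e2 : (fun k => P k j) = (N ^ (n - 1 - j.val)) v := by
        funext k
        exact hPe k j
      rw [e1, e2, ← Matrix.toLin'_apply, Matrix.toLin'_toMatrix']
    rw [hL, Matrix.mul_apply, sum_jordan (J : Matrix (Fin n) (Fin n) K) hJ (fun k => P i k) j]
    rw [hB1, LinearMap.add_apply, Pi.add_apply, hPe i j]
    congr 1
    have hjl := j.isLt
    have e3 : N ((N ^ (n - 1 - j.val)) v) = (N ^ (n - j.val)) v := by
      rw [← Module.End.mul_apply, ← pow_succ']
      have e4 : n - 1 - j.val + 1 = n - j.val := by omega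
      rw [e4]
    rw [e3]
    by_cases h : 1 ≤ j.val
    · rw [dif_pos h, hPe]
      have e5 : n - 1 - (j.val - 1) = n - j.val := by omega
      show ((N ^ (n - j.val)) v) i = ((N ^ (n - 1 - (j.val - 1))) v) i
      rw [e5]
    · rw [dif_neg h]
      have e5 : n - j.val = n := by omega
      rw [e5, hNn]
      rfl
  refine ⟨⟨P, Q, hPQ, hQP⟩, ?_⟩
  show LinearMap.toMatrix' B = P * (J : Matrix (Fin n) (Fin n) K) * Q
  rw [← hcomm, mul_assoc, hPQ, mul_one]

end Cfsg.Agent.Lib.Helper41.RUCONJ
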